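import Mathlib
import Cfsg.Agent.H738.C3.Tools

/-!
# S1920, case B: tools for the rows of Lie type (helper13)

`A = {g | [g, N0] ≤ ⟨z⟩}` is `Act z N0`.

* `psi C g hg` : the permutation induced by `g ∈ A`; `psi_mul`, `sign_psi` (even iff `g` commutes with `s`);
* `mem_N0_of_psi`, `mem_N0` : 2-elements of `A` trivial on `A₆` are in `N0`;
* `card_dvd`, `card_dvd_of_comm` : 2-subgroups of `A`;
* `conj_z`, `conj_s` : fusion of `n` and `n z`;
* `exists_perfect` : a perfect subgroup of `C(N0)` inducing `A₆`;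
* `no_pgl` : no element of `A` acts on `A₆` as an element of `PGL₂(9)` outside `PSL₂(9)`.
-/

set_option autoImplicit false

open Subgroup Equiv

namespace Cfsg.Agent.H13.Co3

open Cfsg.Agent.H738.C3

variable {G : Type*} [Group G]
variable {P N0 : Subgroup G} {z s : G} {ψ : ↥(normalizer (P : Set G)) →* Equiv.Perm (Fin 6)}

theorem memH (C : CB P N0 z s ψ) {g : G} (hg : Act z N0 g) : g ∈ normalizer (P : Set G) :=
  C.key ((act_iff C).1 hg)

theorem Act.mul' (C : CB P N0 z s ψ) {g h : G} (hg : Act z N0 g) (hh : Act z N0 h) : Act z N0 (g * h) :=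
  Act.mul (orderOf_z C) (C.PN C.zP) hg hh

theorem Act.inv' (C : CB P N0 z s ψ) {g : G} (hg : Act z N0 g) : Act z N0 g⁻¹ :=
  Act.inv (orderOf_z C) (C.PN C.zP) hg

theorem Act.z_comm (C : CB P N0 z s ψ) {g : G} (hg : Act z N0 g) : g * z = z * g :=
  Act.comm_z (orderOf_z C) (C.PN C.zP) hg

/-- the subgroup `A` -/
def AA (C : CB P N0 z s ψ) : Subgroup G where
  carrier := {g | Act z N0 g}
  one_mem' := Act.one
  mul_mem' := fun hg hh => Act.mul' C hg hh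
  inv_mem' := fun hg => Act.inv' C hg

theorem mem_AA (C : CB P N0 z s ψ) {g : G} : g ∈ AA C ↔ Act z N0 g := Iff.rfl

theorem normN (C : CB P N0 z s ψ) {g : G} (hg : Act z N0 g) : g ∈ normalizer (N0 : Set G) := by
  have hzN : z ∈ N0 := C.PN C.zP
  have key : ∀ g : G, Act z N0 g → ∀ n ∈ N0, g * n * g⁻¹ ∈ N0 := by
    intro g hg n hn
    have h1 : g * n * g⁻¹ * n⁻¹ ∈ N0 := (zpowers_le.2 hzN) (hg n hn)
    have e : g * n * g⁻¹ = g * n * g⁻¹ * n⁻¹ * n := by group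
    rw [e]
    exact mul_mem h1 hn
  rw [mem_normalizer_iff]
  intro n
  refine ⟨key g hg n, fun h => ?_⟩
  have h1 := key g⁻¹ (Act.inv' C hg) _ h
  have e : g⁻¹ * (g * n * g⁻¹) * g⁻¹⁻¹ = n := by group
  rwa [e] at h1

/-- the permutation induced by an element of `A` -/
def psi (C : CB P N0 z s ψ) : ↥(AA C) →* Equiv.Perm (Fin 6) :=
  ψ.comp (inclusion (fun _ hg => memH C hg))

theorem psi_apply (C : CB P N0 z s ψ) {g : G} (hg : g ∈ AA C) : psi C ⟨g, hg⟩ = ψ ⟨g, memH C hg⟩ := rfl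

theorem sign_psi (C : CB P N0 z s ψ) {g : G} (hg : g ∈ AA C) :
    Equiv.Perm.sign (psi C ⟨g, hg⟩) = 1 ↔ g * s = s * g :=
  C.inv_s ⟨g, memH C hg⟩ (normN C hg)

theorem N0_le_AA (C : CB P N0 z s ψ) : N0 ≤ AA C := fun _ hn => act_N C hn

theorem psi_N0 (C : CB P N0 z s ψ) {n : G} (hn : n ∈ N0) : psi C ⟨n, N0_le_AA C hn⟩ = 1 := C.psi_N n hn

theorem comm_le_AA (C : CB P N0 z s ψ) {g : G} (h : ∀ n ∈ N0, g * n = n * g) : g ∈ AA C := act_of_comm h

theorem exists_even (C : CB P N0 z s ψ) {π : Equiv.Perm (Fin 6)} (hπ : Equiv.Perm.sign π = 1) :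
    ∃ g : G, ∃ hg : g ∈ AA C, (∀ n ∈ N0, g * n = n * g) ∧ psi C ⟨g, hg⟩ = π := by
  obtain ⟨h, hh, hπ'⟩ := C.even π hπ
  exact ⟨h, comm_le_AA C hh, hh, hπ'⟩

/-- the order of a 2-subgroup of the kernel of `ψ` divides 64 -/
theorem card_ker_dvd [Finite G] (C : CB P N0 z s ψ) {W : Subgroup G} (hW : IsPGroup 2 W)
    (hWH : W ≤ normalizer (P : Set G)) (hk : ∀ w (hw : w ∈ W), ψ ⟨w, hWH hw⟩ = 1) : Nat.card W ∣ 64 := by
  have : Fact (Nat.Prime 2) := ⟨Nat.prime_two⟩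
  have hsupk : W.subgroupOf (normalizer (P : Set G)) ≤ ψ.ker := by
    rintro ⟨x, hx⟩ hx'
    exact hk x hx'
  obtain ⟨m, hm, hcard⟩ := C.ker_card
  have h2 : Nat.card ↥W ∣ 64 * m := by
    rw [← hcard, ← Nat.card_congr (subgroupOfEquivOfLe hWH).toEquiv]
    exact card_dvd_of_le hsupk
  obtain ⟨k, hk⟩ := hW.exists_card_eq
  rw [hk] at h2 ⊢
  exact (Nat.Coprime.pow_left k (Nat.coprime_two_left.2 hm)).dvd_of_dvd_mul_right h2

/-- a 2-element of `A` inducing the identity is in `N0` -/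
theorem mem_N0_of_psi [Finite G] (C : CB P N0 z s ψ) {g : G} (hg : g ∈ AA C) (h2 : ∃ k, g ^ 2 ^ k = 1)
    (hψ : psi C ⟨g, hg⟩ = 1) : g ∈ N0 := by
  have : Fact (Nat.Prime 2) := ⟨Nat.prime_two⟩
  have hW : IsPGroup 2 (zpowers g) := by
    obtain ⟨k, hk⟩ := h2
    intro x
    obtain ⟨i, hi⟩ := mem_zpowers_iff.1 x.2
    refine ⟨k, Subtype.ext ?_⟩
    rw [SubmonoidClass.coe_pow, ← hi, OneMemClass.coe_one, ← zpow_natCast, ← zpow_mul, mul_comm, zpow_mul,
      zpow_natCast, hk, one_zpow]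
  have hgN : zpowers g ≤ normalizer (N0 : Set G) := by
    rw [zpowers_le]; exact normN C hg
  have hsup : IsPGroup 2 (N0 ⊔ zpowers g : Subgroup G) := IsPGroup.to_sup_of_normal_left' C.N_two hW hgN
  have hsupA : N0 ⊔ zpowers g ≤ AA C := sup_le (N0_le_AA C) (by rw [zpowers_le]; exact hg)
  have hsupH : N0 ⊔ zpowers g ≤ normalizer (P : Set G) := fun x hx => memH C (hsupA hx)
  have hk : ∀ w (hw : w ∈ N0 ⊔ zpowers g), ψ ⟨w, hsupH hw⟩ = 1 := by
    have h1 : N0 ⊔ zpowers g ≤ (psi C).ker.map (AA C).subtype := by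
      apply sup_le
      · intro a ha
        exact ⟨⟨a, N0_le_AA C ha⟩, psi_N0 C ha, rfl⟩
      · rw [zpowers_le]
        exact ⟨⟨g, hg⟩, hψ, rfl⟩
    intro w hw
    obtain ⟨y, hy, hyx⟩ := h1 hw
    have : y = ⟨w, hsupA hw⟩ := Subtype.ext hyx
    rw [this] at hy
    exact hy
  have h3 := card_ker_dvd C hsup hsupH hk
  have h4 : N0 = N0 ⊔ zpowers g := by
    apply Subgroup.eq_of_le_of_card_ge le_sup_left
    rw [C.card]
    exact Nat.le_of_dvd (by norm_num) h3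
  have h5 : zpowers g ≤ N0 ⊔ zpowers g := le_sup_right
  rw [h4]
  exact h5 (mem_zpowers g)

/-- `ψ` is trivial on elements of `A` commuting modulo `z` with a group inducing `A₆` -/
theorem psi_eq_one (C : CB P N0 z s ψ) {g : G} (hg : g ∈ AA C) {K : Set G}
    (hKψ : ∀ π : Equiv.Perm (Fin 6), Equiv.Perm.sign π = 1 → ∃ k, ∃ hk : k ∈ AA C, k ∈ K ∧ psi C ⟨k, hk⟩ = π)
    (hc : ∀ k ∈ K, g * k = k * g ∨ g * k = z * (k * g)) : psi C ⟨g, hg⟩ = 1 := by
  apply cent_alt_six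
  intro a ha
  obtain ⟨k, hk, hkK, rfl⟩ := hKψ a (Perm.mem_alternatingGroup.1 ha)
  have hzA : z ∈ AA C := N0_le_AA C (C.PN C.zP)
  rw [← map_mul, ← map_mul]
  rcases hc k hkK with h | h
  · exact congrArg _ (Subtype.ext h.symm)
  · have h1 : (⟨g, hg⟩ : ↥(AA C)) * ⟨k, hk⟩ = ⟨z, hzA⟩ * (⟨k, hk⟩ * ⟨g, hg⟩) := Subtype.ext h
    rw [h1, map_mul (psi C) ⟨z, hzA⟩, psi_N0 C (C.PN C.zP), one_mul]

/-- **(R1) + (R3)**: a 2-element of `A` commuting modulo `z` with a group inducing `A₆` is in `N0`. -/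
theorem mem_N0 [Finite G] (C : CB P N0 z s ψ) {g : G} (hg : g ∈ AA C) (h2 : ∃ k, g ^ 2 ^ k = 1) {K : Set G}
    (hKψ : ∀ π : Equiv.Perm (Fin 6), Equiv.Perm.sign π = 1 → ∃ k, ∃ hk : k ∈ AA C, k ∈ K ∧ psi C ⟨k, hk⟩ = π)
    (hc : ∀ k ∈ K, g * k = k * g ∨ g * k = z * (k * g)) : g ∈ N0 :=
  mem_N0_of_psi C hg h2 (psi_eq_one C hg hKψ hc)

/-- **(R5)** a 2-subgroup of `A` has order dividing `2^10`, and `2^9` if it commutes with `s`. -/
theorem card_dvd [Finite G] (C : CB P N0 z s ψ) {W : Subgroup G} (hW : IsPGroup 2 W) (hWA : W ≤ AA C) :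
    Nat.card W ∣ 2 ^ 10 ∧ ((∀ w ∈ W, w * s = s * w) → Nat.card W ∣ 2 ^ 9) := by
  have : Fact (Nat.Prime 2) := ⟨Nat.prime_two⟩
  set f : ↥W →* Equiv.Perm (Fin 6) := (psi C).comp (inclusion hWA) with hf
  have h1 : Nat.card ↥W = Nat.card f.ker * Nat.card f.range := by
    rw [← Subgroup.card_mul_index f.ker, ← Nat.card_congr (QuotientGroup.quotientKerEquivRange f).toEquiv]
    rfl
  have hker : Nat.card f.ker ∣ 64 := by
    have h2 : IsPGroup 2 (f.ker.map W.subtype : Subgroup G) := (hW.to_subgroup f.ker).map _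
    have h3 : (f.ker.map W.subtype : Subgroup G) ≤ normalizer (P : Set G) := by
      rintro _ ⟨w, -, rfl⟩
      exact memH C (hWA w.2)
    have h4 := card_ker_dvd C h2 h3 (by
      rintro _ ⟨w, hw, rfl⟩
      exact hw)
    rwa [Nat.card_congr (f.ker.equivMapOfInjective W.subtype W.subtype_injective).toEquiv.symm] at h4
  have hrange : IsPGroup 2 f.range := hW.of_surjective f.rangeRestrict f.rangeRestrict_surjective
  obtain ⟨a, ha⟩ := hrange.exists_card_eq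
  constructor
  · have h5 : Nat.card f.range ∣ 720 := by
      have := Subgroup.card_subgroup_dvd_card f.range
      rwa [Nat.card_eq_fintype_card (α := Equiv.Perm (Fin 6)), Fintype.card_perm] at this
    have h6 : 2 ^ a ∣ 2 ^ 4 * 45 := by rw [← ha]; exact h5
    have h7 : 2 ^ a ∣ 2 ^ 4 := (Nat.Coprime.pow_left a (by norm_num)).dvd_of_dvd_mul_right h6
    rw [h1, ha]
    calc Nat.card f.ker * 2 ^ a ∣ 64 * 2 ^ 4 := mul_dvd_mul hker h7
      _ = 2 ^ 10 := by norm_num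
  · intro hc
    have h5 : f.range ≤ alternatingGroup (Fin 6) := by
      rintro _ ⟨w, rfl⟩
      rw [Perm.mem_alternatingGroup]
      exact (sign_psi C (hWA w.2)).2 (hc w w.2)
    have h6 : Nat.card f.range ∣ 360 := by
      have h := card_dvd_of_le h5
      have h4 : Nat.card (alternatingGroup (Fin 6)) = 360 := by
        rw [nat_card_alternatingGroup]; simp [Nat.factorial]
      rwa [h4] at h
    have h6' : 2 ^ a ∣ 2 ^ 3 * 45 := by rw [← ha]; exact h6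
    have h7 : 2 ^ a ∣ 2 ^ 3 := (Nat.Coprime.pow_left a (by norm_num)).dvd_of_dvd_mul_right h6'
    rw [h1, ha]
    calc Nat.card f.ker * 2 ^ a ∣ 64 * 2 ^ 3 := mul_dvd_mul hker h7
      _ = 2 ^ 9 := by norm_num

/-- **(R6)** a noncentral element `n` of `N0` is conjugate in `N0` to `z n`. -/
theorem conj_z (C : CB P N0 z s ψ) {n : G} (hn : n ∈ N0) (hs : n ∉ zpowers s) : ∃ m ∈ N0, m * n * m⁻¹ = z * n := by
  have h : ¬ ∀ m ∈ N0, n * m = m * n := fun h => hs (C.cen n hn h)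
  push Not at h
  obtain ⟨m, hm, hne⟩ := h
  refine ⟨m, hm, ?_⟩
  rcases C.comm m hm n hn with h | h
  · exact absurd h.symm hne
  · rw [h]; group

/-- `s` is inverted by an element of `N_H(N0)` inducing any given odd permutation. -/
theorem conj_s (C : CB P N0 z s ψ) {π : Equiv.Perm (Fin 6)} (hπ : Equiv.Perm.sign π ≠ 1) :
    ∃ r ∈ normalizer (P : Set G), ∃ hr : r ∈ normalizer (P : Set G), r ∈ normalizer (N0 : Set G) ∧
      ψ ⟨r, hr⟩ = π ∧ r * s * r⁻¹ = z * s := by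
  obtain ⟨h, hN, hπ'⟩ := C.frat π
  refine ⟨h, h.2, h.2, hN, hπ', ?_⟩
  have hne : ¬ ((h : G) * s = s * h) := by
    rw [← C.inv_s h hN, hπ']
    exact hπ
  -- `h s h⁻¹ ∈ Z(N0)`
  have hmem : (h : G) * s * (h : G)⁻¹ ∈ N0 := (mem_normalizer_iff.1 hN s).1 C.sN
  have hcen : ∀ m ∈ N0, ((h : G) * s * (h : G)⁻¹) * m = m * ((h : G) * s * (h : G)⁻¹) := by
    intro m hm
    have h1 : (h : G)⁻¹ * m * h ∈ N0 := by
      have h2 := (mem_normalizer_iff.1 (inv_mem hN) m).1 hm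
      rwa [inv_inv] at h2
    have h3 := C.s_cen _ h1
    calc ((h : G) * s * (h : G)⁻¹) * m = h * (s * ((h : G)⁻¹ * m * h)) * (h : G)⁻¹ := by group
      _ = h * (((h : G)⁻¹ * m * h) * s) * (h : G)⁻¹ := by rw [h3]
      _ = m * ((h : G) * s * (h : G)⁻¹) := by group
  obtain ⟨k, hk⟩ := mem_zpowers_iff.1 (C.cen _ hmem hcen)
  have hz4 : s ^ (4 : ℤ) = 1 := by
    have : s ^ (4 : ℤ) = (s * s) * (s * s) := by
      rw [show (4 : ℤ) = ((4 : ℕ) : ℤ) from rfl, zpow_natCast]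
      simp only [pow_succ, pow_zero, one_mul, mul_assoc]
    rw [this, C.s_sq, C.z_sq]
  have hk2 : (k % 4 = 0 ∨ k % 4 = 1 ∨ k % 4 = 2 ∨ k % 4 = 3) := by omega
  have hk' : s ^ (k % 4) = (h : G) * s * (h : G)⁻¹ := by
    rw [← hk]
    conv_rhs => rw [← Int.emod_add_mul_ediv k 4, zpow_add, zpow_mul, hz4, one_zpow, mul_one]
  have hs1 : s ≠ 1 := by
    intro h0
    apply C.z_ne
    rw [← C.s_sq, h0, one_mul]
  have hzz : (h : G) * z = z * h := C.z_cen h h.2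
  rcases hk2 with h0 | h0 | h0 | h0 <;> rw [h0] at hk'
  · exfalso
    rw [zpow_zero] at hk'
    apply hs1
    have : s = (h : G)⁻¹ * 1 * h := by rw [hk']; group
    rw [this]; group
  · exfalso
    rw [zpow_one] at hk'
    apply hne
    rw [← mul_inv_eq_iff_eq_mul]
    exact hk'.symm
  · exfalso
    have h5 : s ^ (2 : ℤ) = z := by
      have : s ^ (2 : ℤ) = s * s := by
        rw [show (2 : ℤ) = ((2 : ℕ) : ℤ) from rfl, zpow_natCast, pow_two]
      rw [this, C.s_sq]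
    rw [h5] at hk'
    have h6 : s = (h : G)⁻¹ * z * h := by rw [hk']; group
    have h7 : s = z := by rw [h6, mul_assoc, ← hzz]; group
    apply C.z_ne
    rw [← C.s_sq, h7, C.z_sq]
  · rw [← hk', ← C.s_sq, show (3 : ℤ) = ((3 : ℕ) : ℤ) from rfl, zpow_natCast]
    simp only [pow_succ, pow_zero, one_mul]

/-- `s` is conjugate to `z s`. -/
theorem exists_conj_s (C : CB P N0 z s ψ) :
    ∃ r ∈ normalizer (P : Set G), r ∈ normalizer (N0 : Set G) ∧ r * s * r⁻¹ = z * s := by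
  obtain ⟨r, hr, _, hN, -, h⟩ := conj_s C (π := Equiv.swap 0 1) (by decide)
  exact ⟨r, hr, hN, h⟩

end Cfsg.Agent.H13.Co3
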